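import Cfsg.Agent.H161.TriLin
import Cfsg.Agent.H161.OctFix

/-!
# Fixed octonions of a semisimple linear octonion automorphism (helper103, S3510 triality, box iA)

* `det_linOf` : a linear octonion automorphism has determinant one;
* `fix_nondeg` : the fixed space of a `p'`-element is nondegenerate;
* `fix_pair` : it contains `b` with `Q b = 1`, `polar b 1 ^ 2 ≠ 4`, unless `q ≤ 3` and it is spanned by `1` and an idempotent.
-/

set_option autoImplicit false

namespace Cfsg.Agent.H103.RC

open Module QuadraticMap Cfsg.Agent.LieClassical.OrthCore Cfsg.Agent.LieClassical.OrthTrans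
  Cfsg.Agent.LieClassical.OrthSimple Cfsg.Agent.ClassicalGeometry.OrthAut1
  Cfsg.Agent.ClassicalGeometry.OrthSemi Cfsg.Agent.H198.Classes
  Cfsg.Agent.LieClassical.QuadForms Cfsg.Agent.H198.ClassesPlus
  Cfsg.Agent.ClassicalGeometry.TrialityOct Cfsg.Agent.ClassicalGeometry.Triality
  Cfsg.Agent.ClassicalGeometry.TrialitySpaces Cfsg.Agent.H198.TriBase Cfsg.Agent.H198.TriAut
  Cfsg.Agent.H206.Balance Cfsg.Agent.H198.BalVar Cfsg.Agent.H198.TriDia Cfsg.Agent.H198.TriSpec
  Cfsg.Agent.H161.TriLin

universe u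

variable {F : Type u} [Field F]

/-- `polar` of the octonion norm -/
local notation "B" => polar (plusForm 4 F)

theorem pl_comm (x y : V8 F) : B x y = B y x := QuadraticMap.polar_comm _ x y

theorem pl_add (x y z : V8 F) : B x (y + z) = B x y + B x z := by
  rw [polar8, polar8, polar8]; simp only [Pi.add_apply]; ring

theorem pl_add_left (x y z : V8 F) : B (x + y) z = B x z + B y z := by
  rw [polar8, polar8, polar8]; simp only [Pi.add_apply]; ring

theorem pl_smul (c : F) (x y : V8 F) : B x (c • y) = c * B x y := by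
  rw [polar8, polar8]; simp only [Pi.smul_apply, smul_eq_mul]; ring

theorem pl_smul_left (c : F) (x y : V8 F) : B (c • x) y = c * B x y := by
  rw [polar8, polar8]; simp only [Pi.smul_apply, smul_eq_mul]; ring

theorem pl_sub (x y z : V8 F) : B x (y - z) = B x y - B x z := by
  rw [polar8, polar8, polar8]; simp only [Pi.sub_apply]; ring

theorem pl_sub_left (x y z : V8 F) : B (x - y) z = B x z - B y z := by
  rw [polar8, polar8, polar8]; simp only [Pi.sub_apply]; ring

theorem q_add (x y : V8 F) : plusForm 4 F (x + y) = plusForm 4 F x + plusForm 4 F y + B x y := by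
  rw [polar]; ring

theorem q_smul (c : F) (x : V8 F) : plusForm 4 F (c • x) = c * c * plusForm 4 F x := QuadraticMap.map_smul _ c x

theorem pl_self (x : V8 F) : B x x = 2 * plusForm 4 F x := by
  rw [polar8, norm8]; ring

theorem pl_one_one : B (one8 F) (one8 F) = 2 := by
  rw [pl_self, norm_one8, mul_one]

section aut

variable {s : G8 F} (hs : TriS s s s) (hl : IsLin s)
include hs hl

theorem aut_ss : IsSS (plusForm 4 F) (RingEquiv.refl F) 1 s.1 := by
  obtain ⟨c, hc⟩ := hl
  have := aut_mult hs hc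
  rwa [this] at hc

theorem aut_q (x : V8 F) : plusForm 4 F (s.1 x) = plusForm 4 F x := by
  rw [(aut_ss hs hl).form, one_mul]; rfl

theorem aut_pl (x y : V8 F) : B (s.1 x) (s.1 y) = B x y := by
  rw [(aut_ss hs hl).polar, one_mul]; rfl

/-- a linear octonion automorphism has determinant one -/
theorem det_linOf (hG : Good (plusForm 4 F)) : LinearEquiv.det (linOf hl) = 1 := by
  have hO : linOf hl ∈ O (plusForm 4 F) := fun x => aut_q hs hl x
  have h1 := sgn_kappa hG (neutral_plus 4 F) hO
  have h2 : gamO (plusForm 4 F) ⟨linOf hl, hO⟩ = s := Subtype.ext (Equiv.ext fun _ => rfl)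
  have h3 : kp F s = 1 := (mem_T1_iff hG).1 ⟨s, s, hs⟩
  rw [h2] at h1
  have h4 : kappa (neutral_plus 4 F) s = 1 := h3
  rw [h4, map_one] at h1
  exact h1.symm

/-- odd characteristic: a fixed vector orthogonal to `1` -/
theorem exists_fixed (hG : Good (plusForm 4 F)) (h2 : (2 : F) ≠ 0) :
    ∃ v : V8 F, v ≠ 0 ∧ s.1 v = v ∧ B v (one8 F) = 0 := by
  have h1 : s.1 (one8 F) = one8 F := aut_one hs
  let f : V8 F →ₗ[F] F :=
    { toFun := fun x => - B x (one8 F)
      map_add' := fun x y => by rw [pl_add_left]; ring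
      map_smul' := fun c x => by rw [pl_smul_left]; simp }
  let D : V8 F →ₗ[F] V8 F := (linOf hl : V8 F →ₗ[F] V8 F) ∘ₗ LinearMap.transvection f (one8 F)
  have hD : ∀ x, D x = s.1 x - B x (one8 F) • one8 F := by
    intro x
    show s.1 (LinearMap.transvection f (one8 F) x) = _
    rw [LinearMap.transvection.apply, (aut_ss hs hl).add, (aut_ss hs hl).smul, h1]
    show s.1 x + (- B x (one8 F)) • one8 F = _
    rw [neg_smul, sub_eq_add_neg]
  have hdet : LinearMap.det D ≠ 1 := by
    show LinearMap.det ((linOf hl : V8 F →ₗ[F] V8 F) ∘ₗ LinearMap.transvection f (one8 F)) ≠ 1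
    rw [LinearMap.det_comp, LinearMap.transvection.det, ← LinearEquiv.coe_det, det_linOf hs hl hG]
    show ((1 : Fˣ) : F) * (1 + - B (one8 F) (one8 F)) ≠ 1
    rw [pl_one_one]
    intro h
    apply h2
    rw [Units.val_one] at h
    linear_combination -h
  have hbl : ∀ x y : V8 F, H161.Oct.bl (phi F x) (phi F y) = B x y := by
    intro x y
    have e := H161.Oct.nm_add (phi F x) (phi F y)
    rw [← map_add, nm_phi, nm_phi, nm_phi] at e
    rw [polar, e]; ring
  obtain ⟨v, hv0, hv⟩ := H161.Oct.exists_fixed_of_det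
    (T := (phi F : V8 F →ₗ[F] (Fin 8 → F)) ∘ₗ D ∘ₗ ((phi F).symm : (Fin 8 → F) →ₗ[F] V8 F)) (by
      intro x y
      obtain ⟨x, rfl⟩ := (phi F).surjective x
      obtain ⟨y, rfl⟩ := (phi F).surjective y
      show H161.Oct.bl (phi F (D ((phi F).symm (phi F x)))) (phi F (D ((phi F).symm (phi F y)))) = _
      rw [LinearEquiv.symm_apply_apply, LinearEquiv.symm_apply_apply, hbl, hbl, hD, hD]
      have e1 : ∀ z, B (s.1 z) (one8 F) = B z (one8 F) := fun z => by
        conv_lhs => rw [← h1]
        exact aut_pl hs hl _ _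
      rw [pl_sub, pl_sub_left, pl_sub_left, pl_smul, pl_smul, pl_smul_left, pl_smul_left, aut_pl hs hl, e1,
        pl_comm (one8 F) (s.1 y), e1, pl_one_one]
      ring) (by
      rw [LinearMap.det_conj]
      exact hdet)
  refine ⟨(phi F).symm v, ?_, ?_⟩
  · intro h
    apply hv0
    rw [← (phi F).apply_symm_apply v, h, map_zero]
  · have hv' : D ((phi F).symm v) = (phi F).symm v := by
      have := congrArg (phi F).symm hv
      rwa [LinearMap.comp_apply, LinearMap.comp_apply, LinearEquiv.coe_coe, LinearEquiv.coe_coe,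
        LinearEquiv.symm_apply_apply] at this
    set x := (phi F).symm v with hx
    rw [hD] at hv'
    have e0 : B x (one8 F) = 0 := by
      have e2 : B (s.1 x - B x (one8 F) • one8 F) (one8 F) = B x (one8 F) := congrArg (fun z => B z (one8 F)) hv'
      rw [pl_sub_left, pl_smul_left, pl_one_one] at e2
      have e1 : B (s.1 x) (one8 F) = B x (one8 F) := by
        conv_lhs => rw [← h1]
        exact aut_pl hs hl _ _
      rw [e1] at e2
      have e3 : 2 * B x (one8 F) = 0 := by linear_combination -e2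
      exact (mul_eq_zero.1 e3).resolve_left h2
    rw [e0, zero_smul, sub_zero] at hv'
    exact ⟨hv', e0⟩

/-- the fixed space of a `p'`-element is nondegenerate -/
theorem fix_nondeg {m : ℕ} (hm : (m : F) ≠ 0) (hsm : s ^ m = 1) {v : V8 F} (hv0 : v ≠ 0) (hv : s.1 v = v) :
    ∃ z : V8 F, s.1 z = z ∧ B v z ≠ 0 := by
  obtain ⟨y, hy⟩ : ∃ y, B v y ≠ 0 := by
    by_contra hcon
    push Not at hcon
    exact hv0 (polar_plusForm_nondeg 4 v hcon)
  have hmap0 : s.1 0 = 0 := (aut_ss hs hl).map_zero
  have hsum : ∀ k : ℕ, s.1 (∑ i ∈ Finset.range k, ((s ^ i : G8 F)).1 y) =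
      ∑ i ∈ Finset.range k, ((s ^ (i + 1) : G8 F)).1 y := by
    intro k
    induction k with
    | zero => simpa using hmap0
    | succ k ih =>
      rw [Finset.sum_range_succ, (aut_ss hs hl).add, ih, Finset.sum_range_succ]
      congr 1
      rw [pow_succ']
      rfl
  have hpl : ∀ k : ℕ, B v (∑ i ∈ Finset.range k, ((s ^ i : G8 F)).1 y) = k * B v y := by
    have h1 : ∀ i : ℕ, B v (((s ^ i : G8 F)).1 y) = B v y := by
      intro i
      induction i with
      | zero => rfl
      | succ i ih =>
        rw [pow_succ']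
        show B v (s.1 (((s ^ i : G8 F)).1 y)) = _
        conv_lhs => rw [← hv]
        rw [aut_pl hs hl, ih]
    intro k
    induction k with
    | zero =>
      rw [Finset.sum_range_zero, Nat.cast_zero, zero_mul]
      have := pl_smul 0 v (0 : V8 F)
      rwa [zero_smul, zero_mul] at this
    | succ k ih =>
      rw [Finset.sum_range_succ, pl_add, ih, h1]
      push_cast
      ring
  refine ⟨∑ i ∈ Finset.range m, ((s ^ i : G8 F)).1 y, ?_, ?_⟩
  · rw [hsum]
    have e1 := Finset.sum_range_succ (fun i => ((s ^ i : G8 F)).1 y) m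
    have e2 := Finset.sum_range_succ' (fun i => ((s ^ i : G8 F)).1 y) m
    rw [hsm] at e1
    rw [e1] at e2
    exact (add_right_cancel e2).symm
  · rw [hpl]
    exact mul_ne_zero hm hy

/-- existence of a nondegenerate plane `⟨1, c⟩` of fixed vectors -/
theorem exists_disc (hG : Good (plusForm 4 F)) {m : ℕ} (hm : (m : F) ≠ 0) (hsm : s ^ m = 1) :
    ∃ c : V8 F, s.1 c = c ∧ B c (one8 F) ^ 2 - 4 * plusForm 4 F c ≠ 0 ∧
      ((2 : F) ≠ 0 → B c (one8 F) = 0) := by
  have h1 : s.1 (one8 F) = one8 F := aut_one hs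
  by_cases h2 : (2 : F) = 0
  · have h10 : one8 F ≠ 0 := by
      intro h
      have := norm_one8 (F := F)
      rw [h, QuadraticMap.map_zero] at this
      exact zero_ne_one this
    obtain ⟨c, hc, hc1⟩ := fix_nondeg hs hl hm hsm h10 h1
    refine ⟨c, hc, ?_, fun h => absurd h2 h⟩
    rw [pl_comm] at hc1
    have h4 : (4 : F) = 0 := by linear_combination 2 * h2
    rw [h4, zero_mul, sub_zero]
    exact pow_ne_zero _ hc1
  · obtain ⟨v, hv0, hv, hv1⟩ := exists_fixed hs hl hG h2
    have h4 : (4 : F) ≠ 0 := by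
      have : (4 : F) = 2 * 2 := by norm_num
      rw [this]; exact mul_ne_zero h2 h2
    by_cases hq : plusForm 4 F v = 0
    · obtain ⟨z, hz, hvz⟩ := fix_nondeg hs hl hm hsm hv0 hv
      set z' := z - (B z (one8 F) / 2) • one8 F with hz'
      have hz's : s.1 z' = z' := by
        rw [hz', (aut_ss hs hl).sub, (aut_ss hs hl).smul, h1, hz]; rfl
      have hz'1 : B z' (one8 F) = 0 := by
        rw [hz', pl_sub_left, pl_smul_left, pl_one_one]
        field_simp
        ring
      have hvz' : B v z' ≠ 0 := by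
        rw [hz', pl_sub, pl_smul, hv1, mul_zero, sub_zero]
        exact hvz
      by_cases hqz : plusForm 4 F z' = 0
      · refine ⟨v + z', ?_, ?_, fun _ => ?_⟩
        · rw [(aut_ss hs hl).add, hv, hz's]
        · rw [pl_add_left, hv1, hz'1, q_add, hq, hqz]
          simpa using ⟨h4, hvz'⟩
        · rw [pl_add_left, hv1, hz'1, add_zero]
      · refine ⟨z', hz's, ?_, fun _ => hz'1⟩
        rw [hz'1]
        simpa using ⟨h4, hqz⟩
    · refine ⟨v, hv, ?_, fun _ => hv1⟩
      rw [hv1]
      simpa using ⟨h4, hq⟩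

end aut

/-- the reflected vector -/
theorem exists_norm_one {s : G8 F} (hs : TriS s s s) (hl : IsLin s) {c : V8 F} (hc : s.1 c = c)
    (hd : B c (one8 F) ^ 2 - 4 * plusForm 4 F c ≠ 0) {l : F} (h0 : plusForm 4 F (c + l • one8 F) ≠ 0)
    (h1 : B (c + l • one8 F) (one8 F) ≠ 0) :
    ∃ b : V8 F, s.1 b = b ∧ plusForm 4 F b = 1 ∧ B b (one8 F) ^ 2 ≠ 4 := by
  have hso : s.1 (one8 F) = one8 F := aut_one hs
  set v := c + l • one8 F with hv
  have hvs : s.1 v = v := by
    rw [hv, (aut_ss hs hl).add, (aut_ss hs hl).smul, hc, hso]; rfl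
  have hd' : B v (one8 F) ^ 2 - 4 * plusForm 4 F v ≠ 0 := by
    have e1 : B v (one8 F) = B c (one8 F) + 2 * l := by
      rw [hv, pl_add_left, pl_smul_left, pl_one_one]; ring
    have e2 : plusForm 4 F v = plusForm 4 F c + l * B c (one8 F) + l * l := by
      rw [hv, q_add, q_smul, norm_one8, pl_smul]; ring
    rw [e1, e2]
    intro h
    apply hd
    linear_combination h
  refine ⟨one8 F - (B v (one8 F) / plusForm 4 F v) • v, ?_, ?_, ?_⟩
  · rw [(aut_ss hs hl).sub, (aut_ss hs hl).smul, hso, hvs]; rfl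
  · rw [sub_eq_add_neg, ← neg_smul, q_add, q_smul, norm_one8, pl_smul, pl_comm (one8 F) v]
    field_simp
    ring
  · rw [pl_sub_left, pl_smul_left, pl_one_one]
    intro h
    have e : (B v (one8 F) / plusForm 4 F v * B v (one8 F)) *
        (B v (one8 F) / plusForm 4 F v * B v (one8 F) - 4) = 0 := by linear_combination h
    rcases mul_eq_zero.1 e with h3 | h3
    · rcases mul_eq_zero.1 h3 with h4 | h4
      · rcases div_eq_zero_iff.1 h4 with h5 | h5
        · exact h1 h5
        · exact h0 h5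
      · exact h1 h4
    · apply hd'
      rw [sub_eq_zero, div_mul_eq_mul_div, div_eq_iff h0] at h3
      linear_combination h3

/-- `q ≥ 4` -/
theorem fix_pair_four [Finite F] (hG : Good (plusForm 4 F)) (hq : 4 ≤ Nat.card F) {s : G8 F} (hs : TriS s s s)
    (hl : IsLin s) {m : ℕ} (hm : (m : F) ≠ 0) (hsm : s ^ m = 1) :
    ∃ b : V8 F, s.1 b = b ∧ plusForm 4 F b = 1 ∧ B b (one8 F) ^ 2 ≠ 4 := by
  classical
  have := Fintype.ofFinite F
  obtain ⟨c, hc, hd, hc2⟩ := exists_disc hs hl hG hm hsm
  set t := B c (one8 F) with ht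
  set k := plusForm 4 F c with hk
  have hql : ∀ l : F, plusForm 4 F (c + l • one8 F) = l ^ 2 + l * t + k := fun l => by
    rw [q_add, q_smul, norm_one8, pl_smul, ← ht, ← hk]; ring
  have hbl : ∀ l : F, B (c + l • one8 F) (one8 F) = t + 2 * l := fun l => by
    rw [pl_add_left, pl_smul_left, pl_one_one, ← ht]; ring
  -- the bad values
  have hroots : ∃ S : Finset F, S.card ≤ 2 ∧ ∀ l : F, l ^ 2 + l * t + k = 0 → l ∈ S := by
    by_cases hex : ∃ l : F, l ^ 2 + l * t + k = 0
    · obtain ⟨l0, hl0⟩ := hex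
      refine ⟨{l0, - t - l0}, Finset.card_le_two, fun l hl => ?_⟩
      rw [Finset.mem_insert, Finset.mem_singleton]
      have e : (l - l0) * (l - (- t - l0)) = 0 := by linear_combination hl - hl0
      rcases mul_eq_zero.1 e with h | h
      · exact Or.inl (sub_eq_zero.1 h)
      · exact Or.inr (sub_eq_zero.1 h)
    · exact ⟨∅, by simp, fun l hl => absurd ⟨l, hl⟩ hex⟩
  obtain ⟨S, hS, hS'⟩ := hroots
  have hbad : ∃ S' : Finset F, S'.card ≤ 1 ∧ ∀ l : F, t + 2 * l = 0 → l ∈ S' := by
    by_cases h2 : (2 : F) = 0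
    · refine ⟨∅, by simp, fun l hl' => ?_⟩
      exfalso
      rw [h2, zero_mul, add_zero] at hl'
      apply hd
      rw [hl']
      linear_combination (-2 * k) * h2
    · refine ⟨{-t / 2}, by simp, fun l hl' => ?_⟩
      rw [Finset.mem_singleton, eq_div_iff h2]
      linear_combination hl'
  obtain ⟨S', hS1, hS1'⟩ := hbad
  obtain ⟨l, hl1⟩ : ∃ l : F, l ∉ S ∪ S' := by
    by_contra hcon
    push Not at hcon
    have h1 : Finset.univ ⊆ S ∪ S' := fun x _ => hcon x
    have h2 := Finset.card_le_card h1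
    have h3 := Finset.card_union_le S S'
    rw [Finset.card_univ, ← Nat.card_eq_fintype_card] at h2
    omega
  rw [Finset.mem_union, not_or] at hl1
  refine exists_norm_one hs hl hc hd (l := l) ?_ ?_
  · rw [hql]
    exact fun h => hl1.1 (hS' l h)
  · rw [hbl]
    exact fun h => hl1.2 (hS1' l h)

/-- the square of an octonion -/
theorem sq8 (x : V8 F) : omul x x = B x (one8 F) • x - plusForm 4 F x • one8 F := by
  rw [norm8, polar8]
  apply ext8 <;>
    simp only [omul_l0, omul_l1, omul_l2, omul_l3, omul_r0, omul_r1, omul_r2, omul_r3, Pi.sub_apply,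
      Pi.smul_apply, smul_eq_mul, one8, Sum.elim_inl, Sum.elim_inr, Matrix.cons_val_zero, Matrix.cons_val_one,
      Matrix.cons_val] <;>
    ring

/-- the case `q ≤ 3`, given an idempotent -/
theorem fix_idem {s : G8 F} (hs : TriS s s s) (hl : IsLin s) {m : ℕ} (hm : (m : F) ≠ 0) (hsm : s ^ m = 1)
    (hval : ∀ a : F, a = 0 ∨ a = 1 ∨ (a = -1 ∧ (3 : F) = 0)) (h23 : (2 : F) = 0 ∨ (3 : F) = 0)
    {e : V8 F} (he : s.1 e = e) (hq : plusForm 4 F e = 0) (ht : B e (one8 F) = 1) :
    (∃ b : V8 F, s.1 b = b ∧ plusForm 4 F b = 1 ∧ B b (one8 F) ^ 2 ≠ 4) ∨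
      ∀ v : V8 F, s.1 v = v → ∃ a c : F, v = a • one8 F + c • e := by
  have hso : s.1 (one8 F) = one8 F := aut_one hs
  have h1 : (1 : F) ≠ 0 := one_ne_zero
  -- projection
  have hproj : ∀ v : V8 F, s.1 v = v → ∃ (a c : F) (v' : V8 F), v = a • one8 F + c • e + v' ∧ s.1 v' = v' ∧
      B v' (one8 F) = 0 ∧ B v' e = 0 := by
    intro v hv
    refine ⟨B v e, B v (one8 F) - 2 * B v e, v - (B v e) • one8 F - (B v (one8 F) - 2 * B v e) • e, ?_, ?_, ?_, ?_⟩
    · abel
    · rw [(aut_ss hs hl).sub, (aut_ss hs hl).sub, (aut_ss hs hl).smul, (aut_ss hs hl).smul, hv, he, hso]; rfl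
    · rw [pl_sub_left, pl_sub_left, pl_smul_left, pl_smul_left, pl_one_one, ht]; ring
    · rw [pl_sub_left, pl_sub_left, pl_smul_left, pl_smul_left, pl_self, hq, pl_comm (one8 F) e, ht]; ring
  by_cases hall : ∀ v' : V8 F, s.1 v' = v' → B v' (one8 F) = 0 → B v' e = 0 → v' = 0
  · right
    intro v hv
    obtain ⟨a, c, v', h2, h3, h4, h5⟩ := hproj v hv
    refine ⟨a, c, ?_⟩
    rw [hall v' h3 h4 h5, add_zero] at h2
    exact h2
  · left
    push Not at hall
    obtain ⟨v', hv', hv1, hve, hv0⟩ := hall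
    -- a vector of norm different from zero
    obtain ⟨x, hx, hx1, hxe, hxq⟩ : ∃ x : V8 F, s.1 x = x ∧ B x (one8 F) = 0 ∧ B x e = 0 ∧ plusForm 4 F x ≠ 0 := by
      by_contra hcon
      push Not at hcon
      obtain ⟨z, hz, hvz⟩ := fix_nondeg hs hl hm hsm hv0 hv'
      obtain ⟨a, c, z', h2, h3, h4, h5⟩ := hproj z hz
      have h6 : B v' z' = B v' z := by
        rw [h2, pl_add, pl_add, pl_smul, pl_smul, hv1, hve]; ring
      have h7 := hcon (v' + z') (by rw [(aut_ss hs hl).add, hv', h3]) (by rw [pl_add_left, hv1, h4, add_zero])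
        (by rw [pl_add_left, hve, h5, add_zero])
      rw [q_add, hcon v' hv' hv1 hve, hcon z' h3 h4 h5, h6, zero_add, zero_add] at h7
      exact hvz h7
    rcases h23 with h2 | h3
    · -- `q = 2`
      have hx1' : plusForm 4 F x = 1 := by
        rcases hval (plusForm 4 F x) with h | h | ⟨-, h⟩
        · exact absurd h hxq
        · exact h
        · exfalso
          apply h1
          linear_combination h - h2
      refine ⟨e + x, ?_, ?_, ?_⟩
      · rw [(aut_ss hs hl).add, he, hx]
      · rw [q_add, hq, hx1', pl_comm, hxe]; ring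
      · rw [pl_add_left, ht, hx1]
        intro h
        apply h1
        linear_combination h + 2 * h2
    · -- `q = 3`
      by_cases hx1' : plusForm 4 F x = 1
      · refine ⟨x, hx, hx1', ?_⟩
        rw [hx1]
        intro h
        apply h1
        linear_combination -h - h3
      · have hxm : plusForm 4 F x = -1 := by
          rcases hval (plusForm 4 F x) with h | h | ⟨h, -⟩
          · exact absurd h hxq
          · exact absurd h hx1'
          · exact h
        refine ⟨(2 : F) • e + (-1 : F) • one8 F + x, ?_, ?_, ?_⟩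
        · rw [(aut_ss hs hl).add, (aut_ss hs hl).add, (aut_ss hs hl).smul, (aut_ss hs hl).smul, he, hx, hso]; rfl
        · have e1 : B ((2 : F) • e + (-1 : F) • one8 F) x = 0 := by
            rw [pl_add_left, pl_smul_left, pl_smul_left, pl_comm e x, pl_comm (one8 F) x, hxe, hx1]; ring
          rw [q_add, q_add, q_smul, q_smul, pl_smul_left, pl_smul, norm_one8, hq, hxm, ht, e1]
          linear_combination -h3
        · rw [pl_add_left, pl_add_left, pl_smul_left, pl_smul_left, pl_one_one, ht, hx1]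
          intro h
          apply h1
          linear_combination -h - h3

/-- **Box iA**: one semisimple element -/
theorem fix_pair [Finite F] (hG : Good (plusForm 4 F)) {s : G8 F} (hs : TriS s s s)
    (hl : IsLin s) {m : ℕ} (hm : (m : F) ≠ 0) (hsm : s ^ m = 1) :
    (∃ b : V8 F, s.1 b = b ∧ plusForm 4 F b = 1 ∧ B b (one8 F) ^ 2 ≠ 4) ∨
    (Nat.card F ≤ 3 ∧ ∃ e : V8 F, s.1 e = e ∧ omul e e = e ∧ plusForm 4 F e = 0 ∧ B e (one8 F) = 1 ∧
      ∀ v : V8 F, s.1 v = v → ∃ a c : F, v = a • one8 F + c • e) := by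
  classical
  have := Fintype.ofFinite F
  rcases Nat.lt_or_ge (Nat.card F) 4 with hq | hq
  swap
  · exact Or.inl (fix_pair_four hG hq hs hl hm hsm)
  by_cases hex : ∃ b : V8 F, s.1 b = b ∧ plusForm 4 F b = 1 ∧ B b (one8 F) ^ 2 ≠ 4
  · exact Or.inl hex
  right
  refine ⟨by omega, ?_⟩
  have hso : s.1 (one8 F) = one8 F := aut_one hs
  have h1 : (1 : F) ≠ 0 := one_ne_zero
  -- the values
  have hval : ((2 : F) = 0 ∧ ∀ a : F, a = 0 ∨ a = 1) ∨ ((3 : F) = 0 ∧ ∀ a : F, a = 0 ∨ a = 1 ∨ a = -1) := by
    have hc2 : 2 ≤ Nat.card F := by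
      rw [Nat.card_eq_fintype_card]
      exact Fintype.one_lt_card
    have hcs : ((Nat.card F : ℕ) : F) = 0 := by
      rw [Nat.card_eq_fintype_card]
      exact FiniteField.cast_card_eq_zero F
    have hcases : Nat.card F = 2 ∨ Nat.card F = 3 := by omega
    rcases hcases with h | h
    · left
      rw [h] at hcs
      refine ⟨by exact_mod_cast hcs, fun a => ?_⟩
      have h3 : a ^ Fintype.card F = a := FiniteField.pow_card a
      rw [← Nat.card_eq_fintype_card, h] at h3
      have e : a * (a - 1) = 0 := by linear_combination h3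
      rcases mul_eq_zero.1 e with h4 | h4
      · exact Or.inl h4
      · exact Or.inr (sub_eq_zero.1 h4)
    · right
      rw [h] at hcs
      refine ⟨by exact_mod_cast hcs, fun a => ?_⟩
      have h3 : a ^ Fintype.card F = a := FiniteField.pow_card a
      rw [← Nat.card_eq_fintype_card, h] at h3
      have e : a * ((a - 1) * (a + 1)) = 0 := by linear_combination h3
      rcases mul_eq_zero.1 e with h4 | h4
      · exact Or.inl h4
      rcases mul_eq_zero.1 h4 with h5 | h5
      · exact Or.inr (Or.inl (sub_eq_zero.1 h5))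
      · exact Or.inr (Or.inr (eq_neg_of_add_eq_zero_left h5))
  obtain ⟨c, hc, hd, hc2⟩ := exists_disc hs hl hG hm hsm
  -- the idempotent
  obtain ⟨e, he, hq0, ht⟩ : ∃ e : V8 F, s.1 e = e ∧ plusForm 4 F e = 0 ∧ B e (one8 F) = 1 := by
    rcases hval with ⟨h2, hv⟩ | ⟨h3, hv⟩
    · have ht1 : B c (one8 F) = 1 := by
        rcases hv (B c (one8 F)) with h | h
        · exfalso
          apply hd
          rw [h]
          linear_combination (-2 * plusForm 4 F c) * h2
        · exact h
      refine ⟨c, hc, ?_, ht1⟩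
      rcases hv (plusForm 4 F c) with h | h
      · exact h
      · exfalso
        apply hex
        refine ⟨c, hc, h, ?_⟩
        rw [ht1]
        intro h4
        apply h1
        linear_combination h4 + 2 * h2
    · have h2 : (2 : F) ≠ 0 := by
        intro h2
        apply h1
        linear_combination h3 - h2
      have ht0 := hc2 h2
      have hqc : plusForm 4 F c = -1 := by
        rcases hv (plusForm 4 F c) with h | h | h
        · exfalso
          apply hd
          rw [ht0, h]; ring
        · exfalso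
          apply hex
          refine ⟨c, hc, h, ?_⟩
          rw [ht0]
          intro h4
          apply h1
          linear_combination -h4 - h3
        · exact h
      refine ⟨(-1 : F) • one8 F + (-1 : F) • c, ?_, ?_, ?_⟩
      · rw [(aut_ss hs hl).add, (aut_ss hs hl).smul, (aut_ss hs hl).smul, hso, hc]; rfl
      · rw [q_add, q_smul, q_smul, pl_smul_left, pl_smul, norm_one8, hqc, pl_comm (one8 F) c, ht0]; ring
      · rw [pl_add_left, pl_smul_left, pl_smul_left, pl_one_one, ht0]
        linear_combination -h3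
  refine ⟨e, he, ?_, hq0, ht, ?_⟩
  · rw [sq8, hq0, ht, one_smul, zero_smul, sub_zero]
  · refine (fix_idem hs hl hm hsm ?_ ?_ he hq0 ht).resolve_left hex
    · rcases hval with ⟨h2, hv⟩ | ⟨h3, hv⟩
      · intro a
        rcases hv a with h | h
        · exact Or.inl h
        · exact Or.inr (Or.inl h)
      · intro a
        rcases hv a with h | h | h
        · exact Or.inl h
        · exact Or.inr (Or.inl h)
        · exact Or.inr (Or.inr ⟨h, h3⟩)
    · rcases hval with ⟨h2, -⟩ | ⟨h3, -⟩
      · exact Or.inl h2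
      · exact Or.inr h3

end Cfsg.Agent.H103.RC
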